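import Cfsg.Agent.Lib.McLThreeLocal.SLFive
import Cfsg.Agent.Lib.DivisionFinite.SLFive

/-!
`SL(2,5)` is generated by its elements of order three and has at most 120 automorphisms.
-/

set_option autoImplicit false
set_option maxRecDepth 100000

namespace CfsgLib.McLWeak.SLFiveAut

open CfsgLib.McLThreeLocal.SLFive Matrix

local notation "S5" => Matrix.SpecialLinearGroup (Fin 2) (ZMod 5)

/-- The unitriangular element as a tuple. -/
def gT : T := (1, 1, 0, 1)
/-- The Weyl element as a tuple. -/
def sT : T := (0, 1, 4, 0)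
/-- The central involution as a tuple. -/
def mT : T := (4, 0, 0, 4)
/-- The identity as a tuple. -/
def oneT : T := (1, 0, 0, 1)

/-- The residues. -/
def res : List (ZMod 5) := [0, 1, 2, 3, 4]

/-- All tuples. -/
def allT : List T :=
  res.flatMap fun a => res.flatMap fun b => res.flatMap fun c => res.map fun d => (a, b, c, d)

/-- Determinant one. -/
def detOne (t : T) : Bool := decide (t.1 * t.2.2.2 - t.2.1 * t.2.2.1 = 1)

/-- The candidates for the images of the first generator. -/
def xs : List T :=
  allT.filter fun t => detOne t && !(decide (t = oneT)) &&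
    decide (tmul (tmul (tmul (tmul t t) t) t) t = oneT)

/-- The candidates for the images of the second generator. -/
def ys : List T := allT.filter fun t => detOne t && decide (tmul t t = mT)

/-- The candidates for an automorphism. -/
def pairs : List (T × T) :=
  xs.flatMap fun x => (ys.filter fun y =>
    decide (tmul (tmul (tmul y x) (tmul y x)) (tmul y x) = oneT)).map fun y => (x, y)

theorem pairs_length : pairs.length = 120 := by decide +kernel

theorem mem_res : ∀ a : ZMod 5, a ∈ res := by decide +kernel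

theorem mem_allT (a b c d : ZMod 5) : ((a, b, c, d) : T) ∈ allT := by
  simp only [allT, List.mem_flatMap, List.mem_map]
  exact ⟨a, mem_res a, b, mem_res b, c, mem_res c, d, mem_res d, rfl⟩

theorem invol_ok : (allT.all fun t => !(detOne t) || !(decide (tmul t t = oneT)) ||
    decide (t = oneT) || decide (t = mT)) = true := by decide +kernel

theorem invol_spec (h : S5) (h2 : tmul (ent h) (ent h) = oneT) : ent h = oneT ∨ ent h = mT := by
  have hm := List.all_eq_true.1 invol_ok (ent h) (mem_allT _ _ _ _)
  have hd : detOne (ent h) = true := decide_eq_true (ent_det h)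
  simp only [hd, h2, decide_true, Bool.not_true, Bool.false_or, Bool.or_eq_true, decide_eq_true_eq] at hm
  exact hm

/-- Words in the two generators. -/
def words : List (List Bool) :=
  (List.range 5).flatMap fun i => [[], [false]].flatMap fun e => (List.range 5).flatMap fun j =>
    [[], [false]].flatMap fun f => (List.range 5).flatMap fun k => [[], [false]].map fun h =>
      List.replicate i true ++ e ++ List.replicate j true ++ f ++ List.replicate k true ++ h

/-- The value of a word. -/
def wordVal (w : List Bool) : T := w.foldr (fun b acc => tmul (if b then gT else sT) acc) oneT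

theorem gen_spec : (allT.all fun t => !(detOne t) || words.any fun w => decide (wordVal w = t)) = true := by
  decide +kernel

theorem s_spec : tmul (1, 1, 2, 3) (1, 3, 4, 3) = sT ∧
    tmul (tmul (1, 1, 2, 3) (1, 1, 2, 3)) (1, 1, 2, 3) = oneT ∧
    tmul (tmul (1, 3, 4, 3) (1, 3, 4, 3)) (1, 3, 4, 3) = oneT ∧
    tmul (tmul (tmul sT gT) (tmul sT gT)) (tmul sT gT) = oneT ∧
    tmul sT sT = mT ∧ tmul mT mT = oneT ∧ gT ≠ oneT ∧ mT ≠ oneT ∧
    tmul (tmul (tmul (tmul gT gT) gT) gT) gT = oneT ∧
    (gT.1 * gT.2.2.2 - gT.2.1 * gT.2.2.1 = 1) ∧ (sT.1 * sT.2.2.2 - sT.2.1 * sT.2.2.1 = 1) ∧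
    ((1 : ZMod 5) * 3 - 1 * 2 = 1) ∧ ((1 : ZMod 5) * 3 - 3 * 4 = 1) := by decide +kernel

theorem det_mem (h : S5) : detOne (ent h) = true ∧ ent h ∈ allT := by
  refine ⟨decide_eq_true (ent_det h), ?_⟩
  exact mem_allT _ _ _ _

theorem ent_pow_three (h : S5) : ent (h ^ 3) = tmul (tmul (ent h) (ent h)) (ent h) := by
  rw [pow_succ, pow_two, ent_mul, ent_mul]

theorem ent_pow_five (h : S5) :
    ent (h ^ 5) = tmul (tmul (tmul (tmul (ent h) (ent h)) (ent h)) (ent h)) (ent h) := by
  rw [pow_succ, pow_succ, pow_succ, pow_two, ent_mul, ent_mul, ent_mul, ent_mul]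

theorem exists_gens : ∃ g s : S5, ent g = gT ∧ ent s = sT := by
  obtain ⟨-, -, -, -, -, -, -, -, -, hg, hs, -, -⟩ := s_spec
  obtain ⟨g, eg⟩ := exists_of_ent gT hg
  obtain ⟨s, es⟩ := exists_of_ent sT hs
  exact ⟨g, s, eg, es⟩

theorem closure_gens {g s : S5} (eg : ent g = gT) (es : ent s = sT) :
    Subgroup.closure ({g, s} : Set S5) = ⊤ := by
  rw [eq_top_iff]
  rintro h -
  have hh := List.all_eq_true.1 gen_spec (ent h) (det_mem h).2
  simp only [(det_mem h).1, Bool.not_true, Bool.false_or, List.any_eq_true, decide_eq_true_eq] at hh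
  obtain ⟨w, -, hw⟩ := hh
  have key : ∀ v : List Bool, ∃ k ∈ Subgroup.closure ({g, s} : Set S5), ent k = wordVal v := by
    intro v
    induction v with
    | nil => exact ⟨1, one_mem _, ent_one⟩
    | cons b v ih =>
      obtain ⟨k, hk, ek⟩ := ih
      cases b
      · exact ⟨s * k, mul_mem (Subgroup.subset_closure (Or.inr rfl)) hk, by rw [ent_mul, es, ek]; rfl⟩
      · exact ⟨g * k, mul_mem (Subgroup.subset_closure (Or.inl rfl)) hk, by rw [ent_mul, eg, ek]; rfl⟩
  obtain ⟨k, hk, ek⟩ := key w
  exact ent_injective (ek.trans hw) ▸ hk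

/-- `SL(2,5)` is generated by elements of order dividing three. -/
theorem closure_cube : Subgroup.closure {h : S5 | h ^ 3 = 1} = ⊤ := by
  obtain ⟨g, s, eg, es⟩ := exists_gens
  rw [eq_top_iff, ← closure_gens eg es, Subgroup.closure_le]
  obtain ⟨h1, h2, h3, h4, -, -, -, -, -, -, -, d1, d2⟩ := s_spec
  obtain ⟨a, ea⟩ := exists_of_ent (1, 1, 2, 3) d1
  obtain ⟨b, eb⟩ := exists_of_ent (1, 3, 4, 3) d2
  have hs : s ∈ Subgroup.closure {h : S5 | h ^ 3 = 1} := by
    have e : s = a * b := ent_injective (by rw [ent_mul, ea, eb, h1, es])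
    rw [e]
    refine mul_mem (Subgroup.subset_closure ?_) (Subgroup.subset_closure ?_)
    · exact ent_injective (by rw [ent_pow_three, ea, h2, ent_one]; rfl)
    · exact ent_injective (by rw [ent_pow_three, eb, h3, ent_one]; rfl)
  have hsg : s * g ∈ Subgroup.closure {h : S5 | h ^ 3 = 1} :=
    Subgroup.subset_closure (ent_injective (by rw [ent_pow_three, ent_mul, es, eg, h4, ent_one]; rfl))
  rintro x (rfl | rfl)
  · have := mul_mem (inv_mem hs) hsg
    rwa [inv_mul_cancel_left] at this
  · exact hs

/-- `SL(2,5)` has at most 120 automorphisms. -/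
theorem card_mulAut_le : Nat.card (MulAut S5) ≤ 120 := by
  classical
  obtain ⟨g, s, eg, es⟩ := exists_gens
  obtain ⟨-, -, -, h4, h5, h6, h7, h8, h9, -, -, -, -⟩ := s_spec
  let f : MulAut S5 → {p : T × T // p ∈ pairs.toFinset} := fun φ => ⟨(ent (φ g), ent (φ s)), by
    rw [List.mem_toFinset, pairs, List.mem_flatMap]
    have hg5 : g ^ 5 = 1 := ent_injective (by rw [ent_pow_five, eg, h9, ent_one]; rfl)
    have hg1 : g ≠ 1 := fun e => h7 (by rw [← eg, e, ent_one]; rfl)
    have hm : ent (φ (s * s)) = mT := by
      have hmm : (s * s) * (s * s) = 1 := ent_injective (by rw [ent_mul, ent_mul, es, h5, h6, ent_one]; rfl)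
      have hm1 : s * s ≠ 1 := fun e => h8 (by rw [← h5, ← es, ← ent_mul, e, ent_one]; rfl)
      have h2 : tmul (ent (φ (s * s))) (ent (φ (s * s))) = oneT := by
        rw [← ent_mul, ← map_mul, hmm, map_one, ent_one]; rfl
      rcases invol_spec (φ (s * s)) h2 with e | e
      · exact absurd ((map_eq_one_iff φ φ.injective).1 (ent_injective (e.trans ent_one.symm))) hm1
      · exact e
    refine ⟨ent (φ g), ?_, ?_⟩
    · rw [xs, List.mem_filter]
      refine ⟨(det_mem _).2, ?_⟩
      simp only [(det_mem (φ g)).1, Bool.true_and, Bool.and_eq_true, Bool.not_eq_true',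
        decide_eq_false_iff_not, decide_eq_true_eq]
      refine ⟨fun e => hg1 ((map_eq_one_iff φ φ.injective).1 (ent_injective (e.trans ent_one.symm))), ?_⟩
      rw [← ent_pow_five, ← map_pow, hg5, map_one, ent_one]; rfl
    · rw [List.mem_map]
      refine ⟨ent (φ s), ?_, rfl⟩
      rw [List.mem_filter, ys, List.mem_filter]
      refine ⟨⟨(det_mem _).2, ?_⟩, ?_⟩
      · simp only [(det_mem (φ s)).1, Bool.true_and, decide_eq_true_eq]
        rw [← ent_mul, ← map_mul, hm]
      · simp only [decide_eq_true_eq]
        have hsg : (s * g) ^ 3 = 1 :=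
          ent_injective (by rw [ent_pow_three, ent_mul, es, eg, h4, ent_one]; rfl)
        rw [← ent_mul, ← map_mul, ← ent_pow_three, ← map_pow, hsg, map_one, ent_one]; rfl⟩
  have hf : Function.Injective f := by
    intro φ ψ h
    have h' := congrArg Subtype.val h
    simp only [f, Prod.mk.injEq] at h'
    have hon : Set.EqOn φ.toMonoidHom ψ.toMonoidHom ({g, s} : Set S5) := by
      rintro x (rfl | rfl)
      exacts [ent_injective h'.1, ent_injective h'.2]
    have e := MonoidHom.eq_of_eqOn_dense (closure_gens eg es) hon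
    exact MulEquiv.ext fun x => DFunLike.congr_fun e x
  refine (Nat.card_le_card_of_injective f hf).trans ?_
  rw [Nat.card_eq_fintype_card, Fintype.card_coe]
  exact (List.toFinset_card_le _).trans pairs_length.le

theorem center_ok : (allT.all fun t => !(detOne t) || !(decide (tmul t gT = tmul gT t)) ||
    !(decide (tmul t sT = tmul sT t)) || decide (t = oneT) || decide (t = mT)) = true := by decide +kernel

/-- The centre of `SL(2,5)` has at most two elements. -/
theorem card_center_le : Nat.card (Subgroup.center S5) ≤ 2 := by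
  classical
  obtain ⟨g, s, eg, es⟩ := exists_gens
  let f : Subgroup.center S5 → {t : T // t ∈ ({oneT, mT} : Finset T)} := fun z => ⟨ent z.1, by
    have hm := List.all_eq_true.1 center_ok (ent z.1) (mem_allT _ _ _ _)
    have hd : detOne (ent z.1) = true := decide_eq_true (ent_det z.1)
    have c1 : tmul (ent z.1) gT = tmul gT (ent z.1) := by
      rw [← eg, ← ent_mul, ← ent_mul, Subgroup.mem_center_iff.1 z.2 g]
    have c2 : tmul (ent z.1) sT = tmul sT (ent z.1) := by
      rw [← es, ← ent_mul, ← ent_mul, Subgroup.mem_center_iff.1 z.2 s]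
    simp only [hd, c1, c2, decide_true, Bool.not_true, Bool.false_or, Bool.or_eq_true,
      decide_eq_true_eq] at hm
    simpa using hm⟩
  refine (Nat.card_le_card_of_injective f fun a b h =>
    Subtype.ext (ent_injective (congrArg Subtype.val h))).trans ?_
  rw [Nat.card_eq_fintype_card, Fintype.card_coe]
  exact Finset.card_le_two

/-- The order of `SL(2,5)`. -/
theorem card_eq : Nat.card S5 = 120 := by
  rw [Nat.card_eq_fintype_card]; decide +kernel

end CfsgLib.McLWeak.SLFiveAut
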