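import Cfsg.Agent.Lib.McLWeak.SLFiveAut
import Cfsg.Agent.Lib.Cores.GenFitting
import Cfsg.Agent.Lib.Cores.PCore
import Cfsg.Agent.Lib.ClassK.FStarCentralizer
import Cfsg.Agent.Lib.Mathieu.McLOut
import Cfsg.Agent.Lib.SchurMult.McLTwoFive.Bound
import Cfsg.Agent.Lib.Fischer.PairTwentyFour.Socle

/-!
The three-local characterization of the McLaughlin group with hypotheses on `F*` follows from the one with
the centraliser condition at the centre of a Sylow 3-subgroup only.
-/

set_option autoImplicit false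

namespace CfsgLib.McLWeak.FStarForm

open Subgroup

universe u

/-- The characterization with a weak centraliser condition, as a hypothesis. -/
def WeakCharacterization : Prop :=
  ∀ {G : Type u} [Group G] [Finite G]
    (S : Sylow 3 G) (Z : Subgroup G) (_ : Z = (S : Subgroup G) ⊓ Subgroup.centralizer ((S : Subgroup G) : Set G))
    (J : Subgroup G) (_ : J ≤ S) (_ : IsMulCommutative J) (_ : ∀ a ∈ J, a ^ 3 = 1) (_ : Nat.card J = 3 ^ 4)
    (M₀ : Subgroup G) (_ : M₀ = Subgroup.closure {g : G | g ∈ Subgroup.normalizer (J : Set G) ∧ ∃ k : ℕ, orderOf g = 3 ^ k})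
    (_ : J ≤ M₀) [(J.subgroupOf M₀).Normal] (_ : M₀ ⧸ J.subgroupOf M₀ ≃* alternatingGroup (Fin 6))
    (L₀ : Subgroup G) (_ : L₀ = Subgroup.closure {g : G | g ∈ Subgroup.normalizer (Z : Set G) ∧ ∃ k : ℕ, orderOf g = 3 ^ k})
    (Q : Subgroup G) (_ : Q = (Cfsg.pCore 3 (Subgroup.normalizer (Z : Set G))).map (Subgroup.normalizer (Z : Set G)).subtype)
    (_ : Cfsg.IsExtraspecial 3 Q) (_ : Nat.card Q = 3 ^ 5) (_ : ∀ a ∈ Q, a ^ 3 = 1)
    (_ : Q ≤ L₀) [(Q.subgroupOf L₀).Normal] (_ : L₀ ⧸ Q.subgroupOf L₀ ≃* Matrix.SpecialLinearGroup (Fin 2) (ZMod 5))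
    (_ : Subgroup.centralizer (((Cfsg.pCore 3 (Subgroup.centralizer (Z : Set G))).map (Subgroup.centralizer (Z : Set G)).subtype : Subgroup G) : Set G)
        ≤ (Cfsg.pCore 3 (Subgroup.centralizer (Z : Set G))).map (Subgroup.centralizer (Z : Set G)).subtype),
    Nonempty (G ≃* Cfsg.Spor.McL) ∨ Nonempty (G ≃* MulAut Cfsg.Spor.McL)

section Closure

variable {G : Type u} [Group G]

theorem exists_orderOf_iff (g : G) :
    (∃ k : ℕ, orderOf g = 3 ^ k) ↔ ∃ k : ℕ, g ^ 3 ^ k = 1 := by
  constructor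
  · rintro ⟨k, hk⟩
    exact ⟨k, by rw [← hk]; exact pow_orderOf_eq_one g⟩
  · rintro ⟨k, hk⟩
    obtain ⟨j, -, hj⟩ := (Nat.dvd_prime_pow Nat.prime_three).1 (orderOf_dvd_of_pow_eq_one hk)
    exact ⟨j, hj⟩

/-- The subgroup generated by the 3-elements of `N`, over a normal 3-subgroup `P`. -/
theorem three_closure_quotient {N P : Subgroup G} (hPN : P ≤ N) [(P.subgroupOf N).Normal]
    (hP : IsPGroup 3 P) {K : Subgroup G}
    (hK : K = Subgroup.closure {g : G | g ∈ N ∧ ∃ k : ℕ, orderOf g = 3 ^ k})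
    {W : Subgroup (↥N ⧸ P.subgroupOf N)}
    (hW : W = Subgroup.closure {x : ↥N ⧸ P.subgroupOf N | ∃ k : ℕ, orderOf x = 3 ^ k}) :
    P ≤ K ∧ ∃ _ : (P.subgroupOf K).Normal, Nonempty (↥K ⧸ P.subgroupOf K ≃* W) := by
  have hPK : P ≤ K := fun p hp => by
    rw [hK]
    refine Subgroup.subset_closure ⟨hPN hp, (exists_orderOf_iff p).2 ?_⟩
    obtain ⟨k, hk⟩ := hP ⟨p, hp⟩
    exact ⟨k, by simpa using congrArg Subtype.val hk⟩
  have hKN : K ≤ N := by rw [hK, Subgroup.closure_le]; exact fun g hg => hg.1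
  set q : ↥N →* ↥N ⧸ P.subgroupOf N := QuotientGroup.mk' _
  set f : ↥K →* ↥N ⧸ P.subgroupOf N := q.comp (Subgroup.inclusion hKN)
  have hker : f.ker = P.subgroupOf K := by
    ext x
    rw [MonoidHom.mem_ker, Subgroup.mem_subgroupOf]
    show q (Subgroup.inclusion hKN x) = 1 ↔ _
    rw [QuotientGroup.mk'_apply, QuotientGroup.eq_one_iff, Subgroup.mem_subgroupOf]
    rfl
  have hsurj : f.range = W := by
    apply le_antisymm
    · rintro _ ⟨x, rfl⟩
      have hx : (x : G) ∈ ((W.comap q).map N.subtype) := by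
        have hle : K ≤ (W.comap q).map N.subtype := by
          rw [hK, Subgroup.closure_le]
          intro g hg
          refine ⟨⟨g, hg.1⟩, ?_, rfl⟩
          rw [SetLike.mem_coe, Subgroup.mem_comap, hW]
          obtain ⟨k, hk⟩ := (exists_orderOf_iff g).1 hg.2
          refine Subgroup.subset_closure ((exists_orderOf_iff _).2 ⟨k, ?_⟩)
          rw [← map_pow, show (⟨g, hg.1⟩ : N) ^ 3 ^ k = 1 from Subtype.ext (by simpa using hk), map_one]
        exact hle x.2
      obtain ⟨y, hy, e⟩ := hx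
      rw [SetLike.mem_coe, Subgroup.mem_comap] at hy
      show q (Subgroup.inclusion hKN x) ∈ W
      rwa [show Subgroup.inclusion hKN x = y from Subtype.ext e.symm]
    · rw [hW, Subgroup.closure_le]
      rintro x ⟨k, hk⟩
      obtain ⟨y, rfl⟩ := QuotientGroup.mk'_surjective _ x
      have h1 : y ^ 3 ^ k ∈ P.subgroupOf N := by
        rw [← QuotientGroup.eq_one_iff, QuotientGroup.mk_pow, ← hk]
        exact pow_orderOf_eq_one _
      obtain ⟨j, hj⟩ := hP ⟨((y ^ 3 ^ k : N) : G), Subgroup.mem_subgroupOf.1 h1⟩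
      have hy : (y : G) ∈ K := by
        rw [hK]
        refine Subgroup.subset_closure ⟨y.2, (exists_orderOf_iff _).2 ⟨k + j, ?_⟩⟩
        rw [pow_add, pow_mul]
        simpa using congrArg Subtype.val hj
      exact ⟨⟨y, hy⟩, rfl⟩
  have hn : (P.subgroupOf K).Normal := hker ▸ inferInstance
  exact ⟨hPK, hn, ⟨((QuotientGroup.quotientMulEquivOfEq hker.symm).trans
    (QuotientGroup.quotientKerEquivRange f)).trans (MulEquiv.subgroupCongr hsurj)⟩⟩

end Closure

section Fitting

variable {K : Type u} [Group K] [Finite K]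

/-- A group with `F*` isomorphic to `SL(2,5)` has all 3-elements there, and they generate it. -/
theorem three_elements_eq
    (e : Cfsg.generalizedFittingSubgroup K ≃* Matrix.SpecialLinearGroup (Fin 2) (ZMod 5)) :
    Subgroup.closure {x : K | ∃ k : ℕ, orderOf x = 3 ^ k} = Cfsg.generalizedFittingSubgroup K := by
  set F := Cfsg.generalizedFittingSubgroup K
  have hS := SLFiveAut.card_eq
  have hF : Nat.card F = 120 := (Nat.card_congr e.toEquiv).trans hS
  have hindex : F.index ≤ 2 := by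
    set φ : K →* MulAut F := MulAut.conjNormal
    have hker : Nat.card φ.ker ≤ 2 := by
      have hc : φ.ker ≤ Subgroup.centralizer (F : Set K) := fun g hg => by
        rw [Subgroup.mem_centralizer_iff]
        intro y hy
        have := congrArg Subtype.val (DFunLike.congr_fun (MonoidHom.mem_ker.1 hg) (⟨y, hy⟩ : F))
        simp only [φ, MulAut.conjNormal_apply, MulAut.one_apply] at this
        exact (mul_inv_eq_iff_eq_mul.1 this).symm
      have hcF : φ.ker ≤ F := hc.trans CfsgLib.Cores.centralizer_generalizedFittingSubgroup_le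
      have hle : Nat.card φ.ker ≤ Nat.card (Subgroup.center F) :=
        Nat.card_le_card_of_injective
          (fun x => ⟨⟨x.1, hcF x.2⟩, Subgroup.mem_center_iff.2 fun y =>
            Subtype.ext (Subgroup.mem_centralizer_iff.1 (hc x.2) y y.2)⟩)
          (fun a b h => Subtype.ext (congrArg (fun z : Subgroup.center F => ((z : F) : K)) h))
      have hZ : Nat.card (Subgroup.center F) =
          Nat.card (Subgroup.center (Matrix.SpecialLinearGroup (Fin 2) (ZMod 5))) :=
        Nat.card_congr (Subgroup.centerCongr e).toEquiv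
      exact hle.trans (hZ.le.trans SLFiveAut.card_center_le)
    have hrange : Nat.card φ.range ≤ 120 :=
      (Subgroup.card_le_card_group _).trans
        ((Nat.card_congr (MulAut.congr e).toEquiv).le.trans SLFiveAut.card_mulAut_le)
    have h1 := φ.ker.card_mul_index
    rw [Subgroup.index_ker] at h1
    have h2 := F.card_mul_index
    rw [hF] at h2
    have h3 : Nat.card φ.ker * Nat.card φ.range ≤ 2 * 120 := Nat.mul_le_mul hker hrange
    omega
  apply le_antisymm
  · rw [Subgroup.closure_le]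
    rintro x ⟨k, hk⟩
    have hpos : F.index ≠ 0 := Subgroup.index_ne_zero_of_finite
    interval_cases hi : F.index
    · exact absurd rfl hpos
    · rw [Subgroup.index_eq_one] at hi
      rw [hi]; exact Subgroup.mem_top x
    · obtain ⟨m, hm⟩ := (show Odd (3 ^ k) from Odd.pow (by decide))
      have hx : x ^ (2 * m + 1) = 1 := by rw [← hm, ← hk]; exact pow_orderOf_eq_one x
      rw [pow_succ, pow_mul] at hx
      rw [SetLike.mem_coe, show x = ((x ^ 2) ^ m)⁻¹ from eq_inv_of_mul_eq_one_right hx]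
      exact inv_mem (pow_mem (Subgroup.sq_mem_of_index_two hi x) m)
  · intro x hx
    have h : (⟨x, hx⟩ : F) ∈ (Subgroup.closure {h : Matrix.SpecialLinearGroup (Fin 2) (ZMod 5) |
        h ^ 3 = 1}).comap e.toMonoidHom := by
      rw [SLFiveAut.closure_cube, Subgroup.comap_top]; exact Subgroup.mem_top _
    rw [Subgroup.mem_comap] at h
    have h' : e ⟨x, hx⟩ ∈ (Subgroup.closure {x : K | ∃ k : ℕ, orderOf x = 3 ^ k}).comap
        (F.subtype.comp e.symm.toMonoidHom) := by
      refine (Subgroup.closure_le _).2 (fun y hy => ?_) h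
      refine Subgroup.subset_closure ((exists_orderOf_iff _).2 ⟨1, ?_⟩)
      rw [pow_one, ← map_pow, show y ^ 3 = 1 from hy, map_one]
    rw [Subgroup.mem_comap] at h'
    simpa using h'

end Fitting

theorem not_comm_mcL : ¬ IsMulCommutative Cfsg.Spor.McL := by
  intro h
  have hs : IsSimpleGroup Cfsg.Spor.McL := by
    have := CfsgLib.SchurMult.McLTwoFive.isSimpleGroup_KG
    exact MulEquiv.isSimpleGroup CfsgLib.SchurMult.McLTwoFive.equivMcL.symm
  letI : CommGroup Cfsg.Spor.McL :=
    { (inferInstance : Group Cfsg.Spor.McL) with mul_comm := h.is_comm.comm }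
  have hp := (IsSimpleGroup.prime_card : (Nat.card Cfsg.Spor.McL).Prime)
  rw [← Nat.card_congr CfsgLib.SchurMult.McLTwoFive.equivMcL.toEquiv,
    CfsgLib.Mathieu.McLOut.natCard_KG] at hp
  revert hp
  norm_num

/-- The conclusion about `F*`. -/
theorem isoMcL_generalizedFitting {G : Type u} [Group G] [Finite G]
    (h : Nonempty (G ≃* Cfsg.Spor.McL) ∨ Nonempty (G ≃* MulAut Cfsg.Spor.McL)) :
    Cfsg.Spor.IsoMcL ↥(Cfsg.generalizedFittingSubgroup G) := by
  haveI hs : IsSimpleGroup Cfsg.Spor.McL := by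
    have := CfsgLib.SchurMult.McLTwoFive.isSimpleGroup_KG
    exact MulEquiv.isSimpleGroup CfsgLib.SchurMult.McLTwoFive.equivMcL.symm
  haveI : Finite Cfsg.Spor.McL := Nat.finite_of_card_ne_zero (by
    rw [← Nat.card_congr CfsgLib.SchurMult.McLTwoFive.equivMcL.toEquiv,
      CfsgLib.Mathieu.McLOut.natCard_KG]; norm_num)
  rcases h with he | he <;> obtain ⟨e⟩ := he
  · haveI := MulEquiv.isSimpleGroup e
    have hnc : ¬ IsMulCommutative G := fun hc => not_comm_mcL ⟨⟨fun a b => e.symm.injective (by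
      rw [map_mul, map_mul]; exact hc.is_comm.comm _ _)⟩⟩
    rw [CfsgLib.Cores.generalizedFittingSubgroup_eq_top_of_isSimpleGroup hnc]
    exact ⟨Subgroup.topEquiv.trans e⟩
  · set c : Cfsg.Spor.McL →* MulAut Cfsg.Spor.McL := MulAut.conj
    have hinj : Function.Injective c := by
      rw [← MonoidHom.ker_eq_bot_iff]
      refine (IsSimpleGroup.eq_bot_or_eq_top_of_normal _ inferInstance).resolve_right fun htop => ?_
      refine not_comm_mcL ⟨⟨fun a b => ?_⟩⟩
      have ha : c a = 1 := MonoidHom.mem_ker.1 (htop ▸ Subgroup.mem_top a)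
      exact mul_inv_eq_iff_eq_mul.1 (DFunLike.congr_fun ha b)
    let eN : Cfsg.Spor.McL ≃* c.range := MonoidHom.ofInjective hinj
    haveI : IsSimpleGroup c.range := MulEquiv.isSimpleGroup eN.symm
    haveI : c.range.Normal := ⟨fun _ ⟨a, ha⟩ φ => ⟨φ a, by
      rw [← ha]; exact MulEquiv.ext fun y => by simp [c, MulAut.conj_apply]⟩⟩
    haveI : Finite (MulAut Cfsg.Spor.McL) := Finite.of_equiv G e.toEquiv
    have hnc : ¬ IsMulCommutative c.range := fun hc => not_comm_mcL ⟨⟨fun a b => eN.injective (by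
      rw [map_mul, map_mul]; exact hc.is_comm.comm _ _)⟩⟩
    have hC : Subgroup.centralizer (c.range : Set (MulAut Cfsg.Spor.McL)) = ⊥ := by
      rw [eq_bot_iff]
      intro φ hφ
      rw [Subgroup.mem_bot]
      refine MulEquiv.ext fun a => hinj ?_
      have h1 := Subgroup.mem_centralizer_iff.1 hφ (c a) ⟨a, rfl⟩
      calc c (φ a) = φ * c a * φ⁻¹ := MulEquiv.ext fun y => by simp [c, MulAut.conj_apply]
        _ = c a := by rw [← h1, mul_inv_cancel_right]
    have hF := CfsgLib.Fischer.PairTwentyFour.generalizedFitting_eq_of_simple hnc hC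
    have hmap : (Cfsg.generalizedFittingSubgroup G).map e.toMonoidHom = c.range :=
      (CfsgLib.Cores.map_generalizedFittingSubgroup_equiv e).trans hF
    exact ⟨((e.subgroupMap _).trans (MulEquiv.subgroupCongr hmap)).trans eN.symm⟩

theorem of_weak (H : WeakCharacterization.{u}) {G : Type u} [Group G] [Finite G]
    (Z : Subgroup G) (hZ : Nat.card ↥Z = 3) (S : Sylow 3 ↥(Subgroup.centralizer (Z : Set G)))
    (J : Subgroup G) (hJS : J ≤ ((S : Subgroup ↥(Subgroup.centralizer (Z : Set G))).map (Subgroup.centralizer (Z : Set G)).subtype))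
    (hJ : Cfsg.IsElementaryAbelian 3 J) (hJcard : Nat.card ↥J = 3 ^ 4)
    (hQ : Cfsg.IsExtraspecial 3 ↥(Cfsg.generalizedFittingSubgroup ↥(Subgroup.centralizer (Z : Set G))))
    (hQcard : Nat.card ↥(Cfsg.generalizedFittingSubgroup ↥(Subgroup.centralizer (Z : Set G))) = 3 ^ 5)
    [hQn : (Cfsg.generalizedFittingSubgroup ↥(Subgroup.centralizer (Z : Set G))).Normal]
    (hexp : ∀ x ∈ Cfsg.generalizedFittingSubgroup ↥(Subgroup.centralizer (Z : Set G)), x ^ 3 = 1)
    (hFMQ : Nonempty (↥(Cfsg.generalizedFittingSubgroup (↥(Subgroup.centralizer (Z : Set G)) ⧸ Cfsg.generalizedFittingSubgroup ↥(Subgroup.centralizer (Z : Set G)))) ≃* Matrix.SpecialLinearGroup (Fin 2) (ZMod 5)))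
    [hJn : (J.subgroupOf (Subgroup.normalizer (J : Set G))).Normal]
    (hA6 : Nonempty (↥(Subgroup.closure {x : ↥(Subgroup.normalizer (J : Set G)) ⧸ J.subgroupOf (Subgroup.normalizer (J : Set G)) | ∃ k : ℕ, orderOf x = 3 ^ k}) ≃* ↥(alternatingGroup (Fin 6)))) :
    Cfsg.Spor.IsoMcL ↥(Cfsg.generalizedFittingSubgroup G) := by
  classical
  haveI : Fact (Nat.Prime 3) := ⟨Nat.prime_three⟩
  let M := Subgroup.centralizer (Z : Set G)
  have hM : M = Subgroup.centralizer (Z : Set G) := rfl
  set F := Cfsg.generalizedFittingSubgroup ↥M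
  set N := Subgroup.normalizer (Z : Set G) with hN
  set Q := F.map M.subtype with hQdef
  have hFp : IsPGroup 3 F := IsPGroup.of_card hQcard
  have hcore : Cfsg.pCore 3 ↥M = F :=
    le_antisymm (CfsgLib.Cores.pCore_le_generalizedFittingSubgroup 3) (CfsgLib.Cores.le_pCore hFp)
  have hQp : IsPGroup 3 Q := hFp.map _
  have hQM : Q ≤ M := by rintro _ ⟨x, -, rfl⟩; exact x.2
  have hMN : M ≤ N := Subgroup.centralizer_le_normalizer _
  -- `Z` lies in `Q`
  have hZM : Z ≤ M := by
    haveI : IsCyclic Z := isCyclic_of_prime_card hZ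
    intro z hz
    rw [hM, Subgroup.mem_centralizer_iff]
    intro y hy
    exact congrArg Subtype.val ((IsCyclic.commutative (α := Z)).is_comm.comm ⟨y, hy⟩ ⟨z, hz⟩)
  have hcentQ : Subgroup.centralizer (F : Set ↥M) ≤ F := CfsgLib.Cores.centralizer_generalizedFittingSubgroup_le
  have hZQ : Z ≤ Q := fun z hz => by
    refine ⟨⟨z, hZM hz⟩, hcentQ (Subgroup.mem_centralizer_iff.2 fun y _ => Subtype.ext ?_), rfl⟩
    exact (Subgroup.mem_centralizer_iff.1 y.2 z hz).symm
  have hcentG : Subgroup.centralizer (Q : Set G) ≤ Q := fun g hg => by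
    have hgM : g ∈ M := Subgroup.centralizer_le (fun x hx => hZQ hx) hg
    refine ⟨⟨g, hgM⟩, hcentQ (Subgroup.mem_centralizer_iff.2 fun y hy => Subtype.ext ?_), rfl⟩
    exact Subgroup.mem_centralizer_iff.1 hg y ⟨y, hy, rfl⟩
  -- 3-elements of the normaliser centralise `Z`
  have hthree : ∀ g ∈ N, ∀ k : ℕ, g ^ 3 ^ k = 1 → g ∈ M := by
    intro g hg k hk
    set φ := Z.normalizerMonoidHom
    have hcard : Nat.card (MulAut Z) = 2 := by
      haveI : IsCyclic Z := isCyclic_of_prime_card hZ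
      rw [IsCyclic.card_mulAut, hZ, Nat.totient_prime Nat.prime_three]
    have h1 : φ ⟨g, hg⟩ ^ 2 = 1 := by rw [← hcard]; exact pow_card_eq_one'
    have h2 : φ ⟨g, hg⟩ ^ 3 ^ k = 1 := by
      rw [← map_pow, show (⟨g, hg⟩ : N) ^ 3 ^ k = 1 from Subtype.ext (by simpa using hk), map_one]
    have h3 : φ ⟨g, hg⟩ = 1 := by
      obtain ⟨m, hm⟩ := (show Odd (3 ^ k) from Odd.pow (by decide))
      rw [hm, pow_succ, pow_mul, h1, one_pow, one_mul] at h2
      exact h2
    have h4 : (⟨g, hg⟩ : N) ∈ φ.ker := h3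
    rw [Subgroup.normalizerMonoidHom_ker] at h4
    exact h4
  -- the Sylow subgroup
  set T := (S : Subgroup ↥M).map M.subtype with hT
  have hJT : J ≤ T := hJS
  have hTp : IsPGroup 3 T := S.isPGroup'.map _
  have hQT : Q ≤ T := by
    refine Subgroup.map_mono ?_
    exact IsPGroup.le_sylow_of_normal hFp S
  have hZT : Z ≤ T := hZQ.trans hQT
  have hTM : T ≤ M := by rintro _ ⟨x, -, rfl⟩; exact x.2
  have hcenterT : T ⊓ Subgroup.centralizer (T : Set G) = Z := by
    apply le_antisymm
    · rintro g ⟨hgT, hg⟩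
      obtain ⟨x, hx, rfl⟩ := hcentG (Subgroup.centralizer_le hQT hg)
      -- `x` is central in the extraspecial group
      have hxc : (⟨x, hx⟩ : F) ∈ Subgroup.center F := Subgroup.mem_center_iff.2 fun y =>
        Subtype.ext (Subtype.ext (Subgroup.mem_centralizer_iff.1 hg (y : ↥M) (hQT ⟨y, y.2, rfl⟩)))
      have hle : (Z.subgroupOf M).subgroupOf F ≤ Subgroup.center F := fun z hz =>
        Subgroup.mem_center_iff.2 fun y => Subtype.ext (Subtype.ext
          (Subgroup.mem_centralizer_iff.1 (y : ↥M).2 (z : ↥M) hz).symm)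
      have hcardZ : Nat.card ((Z.subgroupOf M).subgroupOf F) = 3 := by
        rw [← hZ]
        refine Nat.card_congr
          { toFun := fun z => ⟨((z : F) : ↥M), z.2⟩
            invFun := fun z => ⟨⟨⟨z.1, hZM z.2⟩, ?_⟩, z.2⟩
            left_inv := fun _ => rfl
            right_inv := fun _ => rfl }
        obtain ⟨w, hw, e⟩ := hZQ z.2
        rwa [show (⟨z.1, hZM z.2⟩ : ↥M) = w from Subtype.ext e.symm]
      have heq : (Z.subgroupOf M).subgroupOf F = Subgroup.center F :=
        Subgroup.eq_of_le_of_card_ge hle (by rw [hcardZ, hQ.2])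
      rw [← heq] at hxc
      exact hxc
    · refine le_inf hZT fun z hz => Subgroup.mem_centralizer_iff.2 fun y hy => ?_
      exact (Subgroup.mem_centralizer_iff.1 (hTM hy) z hz).symm
  have hmax : ∀ P : Subgroup G, IsPGroup 3 P → T ≤ P → P = T := by
    intro P hP hTP
    by_contra hne
    haveI : Group.IsNilpotent P := hP.isNilpotent
    have hlt : (T.subgroupOf P) < ⊤ := by
      rw [lt_top_iff_ne_top, Ne, Subgroup.subgroupOf_eq_top]
      exact fun h => hne (le_antisymm h hTP)
    have hnc := Group.normalizerCondition_of_isNilpotent (T.subgroupOf P) hlt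
    obtain ⟨g, hg, hgT⟩ := SetLike.exists_of_lt hnc
    apply hgT
    rw [Subgroup.mem_subgroupOf]
    have hgN : (g : G) ∈ Subgroup.normalizer (T : Set G) := by
      rw [Subgroup.mem_normalizer_iff] at hg ⊢
      intro y
      constructor
      · intro hy
        exact (hg ⟨y, hTP hy⟩).1 hy
      · intro hy
        have hyP : y ∈ P := by
          have := mul_mem (mul_mem (inv_mem g.2) (hTP hy)) g.2
          simpa [mul_assoc] using this
        exact (hg ⟨y, hyP⟩).2 hy
    have hgZ : (g : G) ∈ N := by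
      rw [hN, Subgroup.mem_normalizer_iff]
      intro y
      have hconj : ∀ w, w ∈ Subgroup.centralizer (T : Set G) ↔
          (g : G) * w * (g : G)⁻¹ ∈ Subgroup.centralizer (T : Set G) := by
        intro w
        simp only [Subgroup.mem_centralizer_iff]
        constructor
        · intro h a ha
          have ha' : (g : G)⁻¹ * a * g ∈ T := by
            rw [Subgroup.mem_normalizer_iff] at hgN
            refine (hgN _).2 ?_
            simpa [mul_assoc] using ha
          have := h _ ha'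
          calc a * (g * w * (g : G)⁻¹) = g * ((g : G)⁻¹ * a * g * w) * (g : G)⁻¹ := by group
            _ = g * (w * ((g : G)⁻¹ * a * g)) * (g : G)⁻¹ := by rw [this]
            _ = g * w * (g : G)⁻¹ * a := by group
        · intro h a ha
          have ha' : g * a * (g : G)⁻¹ ∈ T := ((Subgroup.mem_normalizer_iff.1 hgN) a).1 ha
          have := h _ ha'
          calc a * w = (g : G)⁻¹ * ((g * a * (g : G)⁻¹) * (g * w * (g : G)⁻¹)) * g := by group
            _ = (g : G)⁻¹ * ((g * w * (g : G)⁻¹) * (g * a * (g : G)⁻¹)) * g := by rw [this]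
            _ = w * a := by group
      rw [← hcenterT, Subgroup.mem_inf, Subgroup.mem_inf, ← hconj y,
        ← (Subgroup.mem_normalizer_iff.1 hgN) y]
    obtain ⟨k, hk⟩ := hP g
    have hgM : (g : G) ∈ M := hthree g hgZ k (by simpa using congrArg Subtype.val hk)
    -- the extension inside `M` collapses
    have hle : (P ⊓ M).subgroupOf M = S := by
      refine S.is_maximal' ((hP.to_le inf_le_left).comap_subtype) ?_
      intro x hx
      exact ⟨hTP ⟨x, hx, rfl⟩, x.2⟩
    have hx : (⟨g, hgM⟩ : ↥M) ∈ (P ⊓ M).subgroupOf M := ⟨g.2, hgM⟩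
    rw [hle] at hx
    exact ⟨_, hx, rfl⟩
  let T' : Sylow 3 G :=
    { toSubgroup := T
      isPGroup' := hTp
      is_maximal' := fun {P} hP h => hmax P hP h }
  -- the cores
  have hcoreN : (Cfsg.pCore 3 N).map N.subtype = Q := by
    apply le_antisymm
    · have hle : (Cfsg.pCore 3 N).map N.subtype ≤ M := by
        rintro _ ⟨x, hx, rfl⟩
        obtain ⟨k, hk⟩ := CfsgLib.Cores.isPGroup_pCore 3 ↥N ⟨x, hx⟩
        exact hthree x x.2 k (by simpa using congrArg (fun y : Cfsg.pCore 3 N => ((y : N) : G)) hk)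
      have hn : ((Cfsg.pCore 3 N).map N.subtype).subgroupOf M ≤ Cfsg.pCore 3 ↥M := by
        haveI : (((Cfsg.pCore 3 N).map N.subtype).subgroupOf M).Normal := ⟨fun x hx m => by
          obtain ⟨y, hy, e⟩ := hx
          refine ⟨⟨m, hMN m.2⟩ * y * ⟨m, hMN m.2⟩⁻¹,
            (inferInstance : (Cfsg.pCore 3 N).Normal).conj_mem y hy _, ?_⟩
          simp only [Subgroup.coe_subtype] at e ⊢
          simp [e]⟩
        exact CfsgLib.Cores.le_pCore (((CfsgLib.Cores.isPGroup_pCore 3 ↥N).map _).comap_subtype)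
      intro x hx
      rw [hcore] at hn
      exact ⟨⟨x, hle hx⟩, hn hx, rfl⟩
    · haveI : (Q.subgroupOf N).Normal := by
        haveI hMn : (M.subgroupOf N).Normal := by
          rw [hM, hN, ← Subgroup.normalizerMonoidHom_ker]
          exact inferInstance
        haveI : F.Characteristic := inferInstance
        refine ⟨fun x hx m => ?_⟩
        obtain ⟨y, hy, e⟩ := hx
        let φ : ↥M ≃* ↥M :=
          { toFun := fun a => ⟨(m : G) * a * (m : G)⁻¹, hMn.conj_mem ⟨a, hMN a.2⟩ a.2 m⟩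
            invFun := fun a => ⟨(m : G)⁻¹ * a * (m : G),
              by simpa [Subgroup.mem_subgroupOf] using hMn.conj_mem ⟨a, hMN a.2⟩ a.2 m⁻¹⟩
            left_inv := fun a => Subtype.ext (by simp [mul_assoc])
            right_inv := fun a => Subtype.ext (by simp [mul_assoc])
            map_mul' := fun a b => Subtype.ext (by simp [mul_assoc]) }
        refine ⟨φ y, ?_, ?_⟩
        · have hc := Subgroup.characteristic_iff_map_eq.1 (inferInstance : F.Characteristic) φ
          rw [← hc]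
          exact ⟨y, hy, rfl⟩
        · simp only [Subgroup.coe_subtype] at e ⊢
          show (m : G) * y * (m : G)⁻¹ = _
          rw [e]
          rfl
      intro x hx
      exact ⟨⟨x, hMN (hQM hx)⟩,
        CfsgLib.Cores.le_pCore (N := Q.subgroupOf N) hQp.comap_subtype (show x ∈ Q from hx), rfl⟩
  -- the two subgroups generated by 3-elements
  have hJM : J ≤ Subgroup.normalizer (J : Set G) := Subgroup.le_normalizer
  have hJp : IsPGroup 3 J := IsPGroup.of_card hJcard
  obtain ⟨hJM₀, hn₀, ⟨eJ⟩⟩ := three_closure_quotient hJM hJp rfl rfl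
  obtain ⟨eA⟩ := hA6
  set L₀ := Subgroup.closure {g : G | g ∈ N ∧ ∃ k : ℕ, orderOf g = 3 ^ k} with hL₀
  have hL₀' : L₀ = Subgroup.closure {g : G | g ∈ M ∧ ∃ k : ℕ, orderOf g = 3 ^ k} := by
    rw [hL₀]
    congr 1
    ext g
    exact ⟨fun h => ⟨(Exists.elim ((exists_orderOf_iff g).1 h.2) fun k hk => hthree g h.1 k hk), h.2⟩,
      fun h => ⟨hMN h.1, h.2⟩⟩
  have hQF : Q.subgroupOf M = F := Subgroup.comap_map_eq_self_of_injective M.subtype_injective F
  haveI : (Q.subgroupOf M).Normal := hQF ▸ hQn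
  obtain ⟨hQL, hn₁, ⟨eQ⟩⟩ := three_closure_quotient hQM hQp hL₀' rfl
  obtain ⟨eF⟩ := hFMQ
  have e₁ : ↥(Subgroup.closure {x : ↥M ⧸ Q.subgroupOf M | ∃ k : ℕ, orderOf x = 3 ^ k}) ≃*
      Matrix.SpecialLinearGroup (Fin 2) (ZMod 5) := by
    refine ((Subgroup.equivMapOfInjective _ (QuotientGroup.quotientMulEquivOfEq hQF).toMonoidHom (QuotientGroup.quotientMulEquivOfEq hQF).injective).trans
      (MulEquiv.subgroupCongr ?_)).trans eF
    rw [← three_elements_eq eF]
    show (Subgroup.closure _).map (QuotientGroup.quotientMulEquivOfEq hQF).toMonoidHom = _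
    rw [MonoidHom.map_closure]
    congr 1
    ext x
    constructor
    · rintro ⟨y, ⟨k, hk⟩, rfl⟩
      exact ⟨k, by rw [MulEquiv.coe_toMonoidHom, MulEquiv.orderOf_eq, hk]⟩
    · rintro ⟨k, hk⟩
      refine ⟨(QuotientGroup.quotientMulEquivOfEq hQF).symm x, ⟨k, ?_⟩, by simp⟩
      rw [MulEquiv.orderOf_eq, hk]
  have hQe : F ≃* Q := Subgroup.equivMapOfInjective _ _ M.subtype_injective
  refine isoMcL_generalizedFitting (H T' Z hcenterT.symm J hJT hJ.1 ?_ hJcard _ rfl hJM₀ (eJ.trans eA)
    L₀ rfl Q hcoreN.symm ?_ ?_ ?_ hQL (eQ.trans e₁) ?_)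
  · exact hJ.2
  · exact CfsgLib.ClassK.isExtraspecial_congr hQe hQ
  · rw [← Nat.card_congr hQe.toEquiv, hQcard]
  · rintro _ ⟨x, hx, rfl⟩
    simpa using congrArg Subtype.val (hexp x hx)
  · rw [hcore]
    exact hcentG

end CfsgLib.McLWeak.FStarForm
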